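import Cfsg.Agent.H700.DM.Defs

/-!
# One shared copy of the on-demand equation lemmas of `H700.DM.IsCl`
-/

set_option autoImplicit false

namespace Cfsg.Agent.H451.EqD.IsClSix

/-- writes `IsCl.eq_6` into this module, so that the importers do not write their own copies -/
theorem keep (n : ℕ) : n = n := by
  have := @Cfsg.Agent.H700.DM.IsCl.eq_6
  rfl

end Cfsg.Agent.H451.EqD.IsClSix
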